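import Mathlib
import Cfsg.Agent.Lib.Mod.Retract
import Cfsg.Agent.Lib.Mod.TwoPrimes
import Cfsg.Agent.Lib.Transfer.Fpf
import Cfsg.Agent.Lib.Transfer.NilpMax

/-! Frobenius groups of automorphisms with fixed-point-free kernel. -/

namespace Cfsg.Agent.Mod

open Module Subgroup
open scoped commutatorElement

universe u

section Groups

variable {Γ Γ' : Type*} [Group Γ] [Group Γ'] [Finite Γ]

theorem exists_split_of_isNilpotent {F : Subgroup Γ} (hF : Group.IsNilpotent F) (p : ℕ)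
    [hp : Fact p.Prime] : ∃ P Q : Subgroup Γ, P ⊔ Q = F ∧ IsPGroup p P ∧ ¬ p ∣ Nat.card Q ∧
      normalizer (F : Set Γ) ≤ normalizer (P : Set Γ) ∧
      normalizer (F : Set Γ) ≤ normalizer (Q : Set Γ) := by
  refine ⟨(pCore p F).map F.subtype, (pPrimeCore p F).map F.subtype, ?_,
    (Core.isPGroup_pCore p).map _, ?_, Core.normalizer_le_normalizer_map_of_characteristic _ _,
    Core.normalizer_le_normalizer_map_of_characteristic _ _⟩
  · have h := Core.fitting_le_pCore_sup_pPrimeCore (G := F) p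
    rw [Core.fitting_eq_top_iff.2 hF, top_le_iff] at h
    rw [← Subgroup.map_sup, h, ← MonoidHom.range_eq_map, range_subtype]
  · rw [Core.card_map_subtype]
    exact (Nat.Prime.coprime_iff_not_dvd hp.out).1 (Core.coprime_card_pPrimeCore p).symm

theorem inf_centralizer_eq_bot_of_split {p : ℕ} [Fact p.Prime] {V P Q : Subgroup Γ}
    (hV : IsPGroup p V) (hP : IsPGroup p P) (hPV : P ≤ normalizer (V : Set Γ))
    (hPQ : P ≤ normalizer (Q : Set Γ))
    (h0 : V ⊓ centralizer ((P ⊔ Q : Subgroup Γ) : Set Γ) = ⊥) :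
    V ⊓ centralizer (Q : Set Γ) = ⊥ := by
  by_contra h
  refine PGrp.inf_centralizer_ne_bot hP (hV.to_inf_left)
    (Core.le_normalizer_inf hPV (Core.le_normalizer_centralizer hPQ)) h
    (le_bot_iff.1 (h0 ▸ le_inf (inf_le_left.trans inf_le_left) ?_))
  rw [le_centralizer_iff, sup_le_iff, ← le_centralizer_iff, ← le_centralizer_iff (K := Q)]
  exact ⟨inf_le_right, inf_le_left.trans inf_le_right⟩

/-- Cosets of `N` fixed by `A` contain fixed points. -/
def Cover (N A : Subgroup Γ) : Prop :=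
  ∀ g : Γ, (∀ a ∈ A, g⁻¹ * (a * g * a⁻¹) ∈ N) → ∃ n ∈ N, g * n ∈ centralizer (A : Set Γ)

omit [Finite Γ] in
theorem Cover.map_inf_centralizer {A G : Subgroup Γ} {π : Γ →* Γ'} (h : Cover π.ker A)
    (hG : π.ker ≤ G) : (G ⊓ centralizer (A : Set Γ)).map π =
      G.map π ⊓ centralizer ((A.map π : Subgroup Γ') : Set Γ') := by
  refine le_antisymm (le_inf (map_mono inf_le_left) ?_) ?_
  · rintro _ ⟨g, hg, rfl⟩ _ ⟨a, ha, rfl⟩
    rw [← map_mul, ← map_mul, hg.2 a ha]
  · rintro _ ⟨⟨g, hg, rfl⟩, hc⟩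
    obtain ⟨n, hn, h1⟩ := h g fun a ha => by
      rw [MonoidHom.mem_ker, map_mul, map_mul, map_mul, hc _ ⟨a, ha, rfl⟩, map_inv, map_inv]
      group
    exact ⟨g * n, ⟨G.mul_mem hg (hG hn), h1⟩, by rw [map_mul, MonoidHom.mem_ker.1 hn, mul_one]⟩

omit [Finite Γ] in
theorem Cover.trans {A N : Subgroup Γ} {π : Γ →* Γ'} (h : Cover π.ker A) (hN : π.ker ≤ N)
    (h' : Cover (N.map π) (A.map π)) : Cover N A := by
  intro g hg
  obtain ⟨_, ⟨n, hn, rfl⟩, h1⟩ := h' (π g) (by
    rintro _ ⟨a, ha, rfl⟩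
    exact ⟨_, hg a ha, by simp⟩)
  obtain ⟨w, hw, h2⟩ := h (g * n) fun a ha => by
    rw [MonoidHom.mem_ker, map_mul, map_mul, map_mul, map_mul π g, h1 _ ⟨a, ha, rfl⟩, map_inv,
      map_inv, map_mul]
    group
  exact ⟨n * w, N.mul_mem hn (hN hw), by rwa [← mul_assoc]⟩

omit [Finite Γ] in
theorem cover_bot (A : Subgroup Γ) : Cover ⊥ A := fun g hg => ⟨1, one_mem _, fun a ha => by
  have := mem_bot.1 (hg a ha)
  rw [inv_mul_eq_one, eq_mul_inv_iff_mul_eq] at this
  rw [mul_one, this]⟩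

/-- `H` normalizes the nilpotent group `F` and acts on it without fixed points. -/
structure NilFrob (F H : Subgroup Γ) : Prop where
  nil : Group.IsNilpotent F
  le : H ≤ normalizer (F : Set Γ)
  fpf : ∀ h ∈ H, h ≠ 1 → ∀ g ∈ F, h * g = g * h → g = 1

theorem NilFrob.map {F H : Subgroup Γ} (h : NilFrob F H) (π : Γ →* Γ') :
    NilFrob (F.map π) (H.map π) := by
  refine ⟨Core.isNilpotent_map h.nil π, (map_mono h.le).trans (le_normalizer_map π), ?_⟩
  by_cases h1 : F ≤ π.ker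
  · rw [(Subgroup.map_eq_bot_iff F).2 h1]
    exact fun _ _ _ _ hg _ => hg
  by_cases h2 : H = ⊥
  · rw [h2, Subgroup.map_bot]
    exact fun _ hh h1 => (h1 hh).elim
  exact (Frob.IsFrobPair.map ⟨h.le, fun e => h1 (e ▸ bot_le), h2, h.fpf⟩ π h1).fpf

omit [Finite Γ] in
theorem NilFrob.mono {F H F' H' : Subgroup Γ} (h : NilFrob F H) (hF : F' ≤ F) (hH : H' ≤ H)
    (hn : H' ≤ normalizer (F' : Set Γ)) : NilFrob F' H' :=
  ⟨Core.isNilpotent_of_le h.nil hF, hn, fun a ha h1 g hg => h.fpf a (hH ha) h1 g (hF hg)⟩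

omit [Finite Γ] in
theorem NilFrob.subgroupOf {F H : Subgroup Γ} (h : NilFrob F H) (L : Subgroup Γ) :
    NilFrob (F.subgroupOf L) (H.subgroupOf L) :=
  ⟨Core.isNilpotent_subgroupOf h.nil L, subgroupOf_le_normalizer h.le, fun a ha h1 g hg e =>
    Subtype.ext (h.fpf a ha (fun e => h1 (Subtype.ext e)) g hg (congrArg Subtype.val e))⟩

theorem cover_of_isPGroup {p : ℕ} [hp : Fact p.Prime] {V F : Subgroup Γ} (hV : IsPGroup p V)
    (hF : Group.IsNilpotent F) (hFV : F ≤ normalizer (V : Set Γ))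
    (h0 : V ⊓ centralizer (F : Set Γ) = ⊥) : Cover V F := by
  obtain ⟨P, Q, rfl, hP, hQ, h1, h2⟩ := exists_split_of_isNilpotent hF p
  have h3 := inf_centralizer_eq_bot_of_split hV hP (le_sup_left.trans hFV)
    (le_sup_left.trans (le_normalizer.trans h2)) h0
  intro g hg
  obtain ⟨n, hn, h4⟩ := Coprime.exists_mul_mem_centralizer (le_sup_right.trans hFV)
    (by
      obtain ⟨m, hm⟩ := hV.exists_card_eq
      rw [hm]
      exact ((hp.out.coprime_iff_not_dvd.2 hQ).symm).pow_right _)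
    (Or.inr (Coprime.isSolvable_of_isPGroup hV)) fun a ha => hg a (mem_sup_right ha)
  refine ⟨n, hn, fun a ha => ?_⟩
  have h5 : (g * n)⁻¹ * (a * (g * n) * a⁻¹) ∈ V ⊓ centralizer (Q : Set Γ) := by
    refine mem_inf.2 ⟨?_, mul_mem (inv_mem h4) (Coprime.conj_mem_of_le_normalizer
      (Core.le_normalizer_centralizer (le_normalizer.trans h2)) ha h4)⟩
    have := V.mul_mem (V.mul_mem (V.inv_mem hn) (hg a ha))
      (Coprime.conj_mem_of_le_normalizer hFV ha hn)
    convert this using 1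
    group
  rw [h3, mem_bot, inv_mul_eq_one, eq_mul_inv_iff_mul_eq] at h5
  exact h5.symm

end Groups

theorem NilFrob.cover_of_isElementaryAbelian {Γ : Type u} [Group Γ] [Finite Γ] {p : ℕ}
    [hp : Fact p.Prime] {V F H : Subgroup Γ} [V.Normal] (hV : IsElementaryAbelian p V)
    (h : NilFrob F H) (h0 : V ⊓ centralizer (F : Set Γ) = ⊥) : Cover V H := by
  obtain ⟨P, Q, rfl, hP, hQ, h1, h2⟩ := exists_split_of_isNilpotent h.nil p
  have h3 := inf_centralizer_eq_bot_of_split (Core.isPGroup_of_isElementaryAbelian hV) hP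
    le_normalizer_of_normal (le_sup_left.trans (le_normalizer.trans h2)) h0
  have h4 := h.mono le_sup_right le_rfl (h.le.trans h2)
  have := h4.nil
  exact fun g hg => exists_mul_mem_centralizer_of_fpf hV inferInstance hQ h4.le h4.fpf h3 hg

theorem NilFrob.cover {Γ : Type u} [Group Γ] [Finite Γ] {F H : Subgroup Γ} (h : NilFrob F H)
    (N : Subgroup Γ) : N.Normal → Group.IsSolvable N → N ⊓ centralizer (F : Set Γ) = ⊥ →
      Cover N F ∧ Cover N H := by
  induction N using Core.subgroup_induction_lt with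
  | h N ih =>
  intro _ hs h0
  by_cases hN : N = ⊥
  · rw [hN]
    exact ⟨cover_bot _, cover_bot _⟩
  obtain ⟨W, hW, -⟩ := Core.exists_isChiefFactor_ge (U := N) (N := ⊥) (bot_lt_iff_ne_bot.2 hN)
  haveI : W.Normal := hW.2.2.1
  have hlt : W < N := hW.1
  have h1 := Core.isMinNormal_map_of_isChiefFactor hW
  haveI := h1.normal
  obtain ⟨h2, h3⟩ := ih W hlt inferInstance (Core.isSolvable_of_le hs hlt.le)
    (le_bot_iff.1 (h0 ▸ inf_le_inf_right _ hlt.le))
  obtain ⟨p, hp, hE⟩ := h1.exists_isElementaryAbelian (Core.isSolvable_map hs _)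
  haveI := Fact.mk hp
  rw [← QuotientGroup.ker_mk' W] at h2 h3 hlt
  have h4 := h2.map_inf_centralizer hlt.le
  rw [h0, Subgroup.map_bot] at h4
  exact ⟨h2.trans hlt.le (cover_of_isPGroup (Core.isPGroup_of_isElementaryAbelian hE)
    (h.map _).nil le_normalizer_of_normal h4.symm),
    h3.trans hlt.le ((h.map _).cover_of_isElementaryAbelian hE h4.symm)⟩

/-- The module-theoretic core. -/
theorem NilFrob.eq_one_of_fix_le {k V G : Type*} [Field k] [IsAlgClosed k] [AddCommGroup V]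
    [Module k V] [FiniteDimensional k V] [Group G] [Finite G] {ρ : Representation k G V} {p : ℕ}
    [hp : Fact p.Prime] [CharP k p] {F H U : Subgroup G} (h : NilFrob F H) (h0 : fix ρ F = ⊥)
    (hU : ¬ p ∣ Nat.card U) (hc : IsMulCommutative U) (hFU : F ≤ normalizer (U : Set G))
    (hHU : H ≤ normalizer (U : Set G)) {u : G} (hu : u ∈ U) (huH : u ∈ centralizer (H : Set G))
    (hfix : ∀ v ∈ fix ρ H, ρ u v = v) : ρ u = 1 := by
  have hUk := natCast_ne_zero_of_not_dvd k hU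
  suffices hs : ∀ c ∈ comps ρ U, c ≤ fix ρ (zpowers u) by
    have := (isInv_top (ρ := ρ) U).le_of_forall_isIrr hUk (X := fix ρ (zpowers u))
      fun X _ hX => le_hcomp.trans (hs _ hX.hcomp_mem_comps)
    exact fix_eq_top_iff.1 (top_le_iff.1 this) u (mem_zpowers u)
  intro c hc'
  have h1 := inf_fix_inf_stab_eq_bot' hUk hFU h0 hc'
  have h2 : NilFrob (F ⊓ stab ρ c) (H ⊓ stab ρ c) := h.mono inf_le_left inf_le_left
    (Core.le_normalizer_inf (inf_le_left.trans h.le) (inf_le_right.trans le_normalizer))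
  obtain ⟨P, Q, hPQ, hP, hQ, h3, h4⟩ := exists_split_of_isNilpotent h2.nil p
  have hPc : P ≤ stab ρ c := le_sup_left.trans (hPQ.le.trans inf_le_right)
  have hQc : Q ≤ stab ρ c := le_sup_right.trans (hPQ.le.trans inf_le_right)
  have h5 : c ⊓ fix ρ Q = ⊥ := by
    by_contra hne
    refine IsInv.inf_fix_ne_bot_of_isPGroup hP ((isInv_iff_le_stab.2 hPc).inf
      (isInv_fix (le_sup_left.trans (hPQ.le.trans (le_normalizer.trans h4))))) hne ?_
    rw [inf_assoc, inf_comm (fix ρ Q), ← fix_sup, hPQ, h1]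
  have h6 := h2.mono (le_sup_right.trans hPQ.le) le_rfl (h2.le.trans h4)
  have := h6.nil
  have h7 : IsInv ρ (H ⊓ stab ρ c) c := isInv_iff_le_stab.2 inf_le_right
  obtain ⟨v, hv, hv0, hv1⟩ := exists_mem_fix_of_stab hUk hHU hc'
    ((isFreeOn_of_fpf' inferInstance (natCast_ne_zero_of_not_dvd k hQ) h6.le h6.fpf
      (isInv_iff_le_stab.2 hQc) h7 h5).inf_fix_ne_bot h7 (ne_bot_of_mem_comps hc'))
  obtain ⟨t, ht⟩ := le_scal_of_mem_comps le_rfl (le_centralizer_iff_isMulCommutative.2 hc) hc' hu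
  have h8 : ρ u v = t • v := by
    refine Submodule.iSup_induction _ (motive := fun v => ρ u v = t • v) hv1 ?_ (by simp) ?_
    · rintro a _ ⟨w, hw, rfl⟩
      rw [← rho_mul_apply, ← huH a a.2, rho_mul_apply, ht w hw, map_smul]
    · intro x y hx hy
      rw [map_add, hx, hy, smul_add]
  have h9 : t = 1 := smul_left_injective k hv0 (by simp only [← h8, hfix v hv, one_smul])
  exact fun w hw => mem_fix_zpowers.2 (by rw [ht w hw, h9, one_smul])

section Main

variable {Γ : Type u} [Group Γ] [Finite Γ] {G F H : Subgroup Γ}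

theorem NilFrob.inf_centralizer_ne_bot {p : ℕ} [hp : Fact p.Prime] {V : Subgroup Γ}
    (hV : IsElementaryAbelian p V) (h : NilFrob F H) (hF : F ≤ normalizer (V : Set Γ))
    (hH : H ≤ normalizer (V : Set Γ)) (h0 : V ⊓ centralizer (F : Set Γ) = ⊥) (h1 : V ≠ ⊥) :
    V ⊓ centralizer (H : Set Γ) ≠ ⊥ := by
  obtain ⟨P, Q, rfl, hP, hQ, -, h2⟩ := exists_split_of_isNilpotent h.nil p
  have h3 := inf_centralizer_eq_bot_of_split (Core.isPGroup_of_isElementaryAbelian hV) hP
    (le_sup_left.trans hF) (le_sup_left.trans (le_normalizer.trans h2)) h0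
  have h4 := h.mono le_sup_right le_rfl (h.le.trans h2)
  have := h4.nil
  have h5 := card_eq_pow_of_fpf hp.out hV inferInstance hQ (le_sup_right.trans hF) hH h4.le h4.fpf
    h3
  intro e
  rw [e, card_bot, one_pow] at h5
  exact h1 (card_eq_one.1 h5)

theorem NilFrob.le_centralizer_of_isMinNormal [G.Normal] (h : NilFrob F H)
    (hs : Group.IsSolvable G) (h0 : G ⊓ centralizer (F : Set Γ) = ⊥)
    (hn : Group.IsNilpotent (G ⊓ centralizer (H : Set Γ) : Subgroup Γ)) {V : Subgroup Γ}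
    (hV : Core.IsMinNormal V) (hVG : V ≤ G) : G ≤ centralizer (V : Set Γ) := by
  haveI := hV.normal
  obtain ⟨p, hp, hE⟩ := hV.exists_isElementaryAbelian (Core.isSolvable_of_le hs hVG)
  haveI := Fact.mk hp
  obtain ⟨W, _, _, _, ρ, ι, hlin⟩ := exists_isLin (AlgebraicClosure (ZMod p)) hE
  by_contra hne
  obtain ⟨U, hU, hUG⟩ := Core.exists_isChiefFactor_le (W := G ⊓ centralizer (V : Set Γ)) (N := G)
    (lt_of_le_of_ne inf_le_left fun e => hne (inf_eq_left.1 e))
  set C := G ⊓ centralizer (V : Set Γ)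
  haveI : U.Normal := hU.2.1
  have hlt : C < U := hU.1
  have h1 := Core.isMinNormal_map_of_isChiefFactor hU
  haveI := h1.normal
  obtain ⟨q, hq, hE'⟩ := h1.exists_isElementaryAbelian
    (Core.isSolvable_map (Core.isSolvable_of_le hs hUG) _)
  haveI := Fact.mk hq
  obtain ⟨h2, h3⟩ := h.cover C inferInstance (Core.isSolvable_of_le hs inf_le_left)
    (le_bot_iff.1 (h0 ▸ inf_le_inf_right _ inf_le_left))
  rw [← QuotientGroup.ker_mk' C] at h2 h3 hlt
  have h4 := h2.map_inf_centralizer hlt.le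
  rw [show U ⊓ centralizer (F : Set Γ) = ⊥ from le_bot_iff.1 (h0 ▸ inf_le_inf_right _ hUG),
    Subgroup.map_bot] at h4
  have h5 := (h.map (QuotientGroup.mk' C)).inf_centralizer_ne_bot hE' le_normalizer_of_normal
    le_normalizer_of_normal h4.symm h1.ne_bot
  have hq' := Core.isPGroup_of_isElementaryAbelian hE'
  obtain ⟨R, hR, hRq, hRm⟩ := exists_isPGroup_map_eq
    (hq'.to_inf_left (K := centralizer _)) (h3.map_inf_centralizer hlt.le).ge
  rw [← hRm, Ne, Subgroup.map_eq_bot_iff, QuotientGroup.ker_mk'] at h5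
  let σ : Representation (AlgebraicClosure (ZMod p)) (Γ ⧸ C) W :=
    QuotientGroup.lift C ρ (hlin.ker_eq ▸ inf_le_right)
  have hσ : ∀ A : Subgroup Γ, fix σ (A.map (QuotientGroup.mk' C)) = fix ρ A := fun A => by
    ext v
    exact ⟨fun h a ha => h _ (mem_map_of_mem _ ha), fun h _ ⟨a, ha, e⟩ => e ▸ h a ha⟩
  have hpq : q ≠ p := by
    rintro rfl
    haveI := hlin.nontrivial_iff.2 hV.ne_bot
    have h6 := (isInv_top (ρ := σ) _).inf_fix_ne_bot_of_isPGroup hq' top_ne_bot
    rw [top_inf_eq, hσ, Ne, hlin.fix_eq_bot_iff] at h6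
    rw [QuotientGroup.ker_mk'] at hlt
    exact hlt.not_ge (le_inf hUG (le_centralizer_iff.1 (hV.le_of_inf_ne_bot h6)))
  have h7 : R ≤ centralizer ((V ⊓ centralizer (H : Set Γ) : Subgroup Γ) : Set Γ) := by
    intro u hu v hv
    refine (Transfer.commute_of_coprime_of_isNilpotent hn ⟨hVG hv.1, hv.2⟩
      ⟨hUG (hR hu).1, (hR hu).2⟩ ?_).eq
    exact ((coprime_card_of_isPGroup hpq.symm (Core.isPGroup_of_isElementaryAbelian hE)
      hRq).coprime_dvd_left (orderOf_dvd_natCard _ hv.1)).coprime_dvd_right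
      (orderOf_dvd_natCard _ hu)
  refine h5 fun u hu => ⟨hUG (hR hu).1, hlin.eq_one_iff.1 ?_⟩
  refine (h.map (QuotientGroup.mk' C)).eq_one_of_fix_le (ρ := σ) (p := p) ?_ ?_ hE'.1
    le_normalizer_of_normal le_normalizer_of_normal (mem_map_of_mem _ (hR hu).1)
    (hRm.le (mem_map_of_mem _ hu)).2 fun v hv => ?_
  · rw [hσ, hlin.fix_eq_bot_iff]
    exact le_bot_iff.1 (h0 ▸ inf_le_inf_right _ hVG)
  · exact (Nat.Prime.coprime_iff_not_dvd hp).1 (coprime_card_of_prime hp hpq.symm hq')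
  · rw [hσ, hlin.fix_eq] at hv
    change ρ u v = v
    refine Submodule.span_induction (fun _ ⟨a, ha, e⟩ => ?_) (map_zero _)
      (fun x y _ _ hx hy => by rw [map_add, hx, hy]) (fun t x _ hx => by rw [map_smul, hx]) hv
    rw [← e, hlin.conj u a ha.1, ← h7 hu a ha, mul_inv_cancel_right]

theorem NilFrob.map_hyp (h : NilFrob F H) (h0 : G ⊓ centralizer (F : Set Γ) = ⊥)
    (hn : Group.IsNilpotent (G ⊓ centralizer (H : Set Γ) : Subgroup Γ)) {N : Subgroup Γ}
    [N.Normal] (hN : N ≤ G) (hs : Group.IsSolvable N) :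
    G.map (QuotientGroup.mk' N) ⊓
      centralizer ((F.map (QuotientGroup.mk' N) : Subgroup (Γ ⧸ N)) : Set (Γ ⧸ N)) = ⊥ ∧
    Group.IsNilpotent (G.map (QuotientGroup.mk' N) ⊓
      centralizer ((H.map (QuotientGroup.mk' N) : Subgroup (Γ ⧸ N)) : Set (Γ ⧸ N)) :
        Subgroup (Γ ⧸ N)) := by
  obtain ⟨h2, h3⟩ := h.cover N inferInstance hs (le_bot_iff.1 (h0 ▸ inf_le_inf_right _ hN))
  rw [← QuotientGroup.ker_mk' N] at h2 h3 hN
  rw [← h2.map_inf_centralizer hN, ← h3.map_inf_centralizer hN, h0]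
  exact ⟨Subgroup.map_bot _, Core.isNilpotent_map hn _⟩

theorem NilFrob.isNilpotent_of_isSolvable [G.Normal] (h : NilFrob F H)
    (hs : Group.IsSolvable G) (h0 : G ⊓ centralizer (F : Set Γ) = ⊥)
    (hn : Group.IsNilpotent (G ⊓ centralizer (H : Set Γ) : Subgroup Γ)) :
    Group.IsNilpotent G := by
  rw [← nres_eq_bot_iff]
  by_contra hne
  obtain ⟨W, hW, -⟩ := Core.exists_isChiefFactor_ge (U := nres G) (N := ⊥) (bot_lt_iff_ne_bot.2 hne)
  haveI : W.Normal := hW.2.2.1
  have h1 := Core.isMinNormal_map_of_isChiefFactor hW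
  have hWG : W ≤ G := hW.1.le.trans (nres_le G)
  obtain ⟨h2, h3⟩ := h.map_hyp h0 hn hWG (Core.isSolvable_of_le hs hWG)
  haveI : (G.map (QuotientGroup.mk' W)).Normal :=
    Normal.map inferInstance _ (QuotientGroup.mk'_surjective W)
  have h4 := (h.map _).le_centralizer_of_isMinNormal (Core.isSolvable_map hs _) h2 h3 h1
    (map_mono (nres_le G))
  rw [← Coprime.commutator_eq_bot_iff_le_centralizer', ← map_commutator, commutator_nres] at h4
  exact h1.ne_bot h4

theorem dvd_card_inf_centralizer {r : ℕ} [hr : Fact r.Prime] {P : Subgroup Γ} (hP : IsPGroup r P)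
    (hn : P ≤ normalizer (G : Set Γ)) (h : r ∣ Nat.card G) :
    r ∣ Nat.card (G ⊓ centralizer (P : Set Γ) : Subgroup Γ) := by
  obtain ⟨S, hS, hPS⟩ := Coprime.exists_isSylowIn_ge (le_sup_right (a := G)) hP
  have hn' : G ⊔ P ≤ normalizer (G : Set Γ) := sup_le le_normalizer hn
  have h1 := hS.inf_of_le_normalizer le_sup_left hn'
  have h2 : S ⊓ G ≠ ⊥ := fun e => by
    have := h1.2.2
    rw [e, relIndex_bot_left] at this
    exact this h
  have h3 := PGrp.inf_centralizer_ne_bot hP h1.2.1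
    (Core.le_normalizer_inf (hPS.trans le_normalizer) hn) h2
  exact (dvd_card_of_isPGroup h1.2.1.to_inf_left h3).trans
    (card_dvd_of_le (inf_le_inf_right _ inf_le_right))

/-- A group with a fixed-point-free nilpotent operator group all of whose proper invariant subgroups
are nilpotent has an invariant subgroup of odd prime power order. -/
theorem exists_invariant_isPGroup {A : Subgroup Γ} (hF : Group.IsNilpotent F) (hFA : F ≤ A)
    (hAF : A ≤ normalizer (F : Set Γ)) (hAG : A ≤ normalizer (G : Set Γ))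
    (h0 : G ⊓ centralizer (F : Set Γ) = ⊥)
    (ih : ∀ K < G, A ≤ normalizer (K : Set Γ) → Group.IsNilpotent K) (h2 : ¬ IsPGroup 2 G) :
    ∃ p : ℕ, p.Prime ∧ p ≠ 2 ∧ ∃ P ≤ G, IsPGroup p P ∧ P ≠ ⊥ ∧ A ≤ normalizer (P : Set Γ) := by
  have key : ∀ K < G, A ≤ normalizer (K : Set Γ) → ∀ p : ℕ, p.Prime → p ≠ 2 → p ∣ Nat.card K →
      ∃ p : ℕ, p.Prime ∧ p ≠ 2 ∧ ∃ P ≤ G, IsPGroup p P ∧ P ≠ ⊥ ∧ A ≤ normalizer (P : Set Γ) := by
    intro K hK hn p hp hp2 hd
    haveI := Fact.mk hp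
    obtain ⟨P, Q, hPQ, hP, hQ, h3, -⟩ := exists_split_of_isNilpotent (ih K hK hn) p
    refine ⟨p, hp, hp2, P, le_sup_left.trans (hPQ.le.trans hK.le), hP, fun e => hQ ?_, hn.trans h3⟩
    rwa [← hPQ, e, bot_sup_eq] at hd
  obtain ⟨E, hEF, ⟨hAE, hE0⟩, hmin⟩ := Core.exists_minimal_le (H := F)
    (P := fun E => A ≤ normalizer (E : Set Γ) ∧ G ⊓ centralizer (E : Set Γ) = ⊥) ⟨hAF, h0⟩
  have hE := Core.isNilpotent_of_le hF hEF
  have hEG := (hEF.trans hFA).trans hAG
  by_cases hc : (Nat.card E).Coprime (Nat.card G)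
  · obtain ⟨p, hp, hd, hp2⟩ : ∃ q : ℕ, q.Prime ∧ q ∣ Nat.card G ∧ q ≠ 2 := by
      by_contra hcon
      push Not at hcon
      exact h2 (Core.isPGroup_iff_forall_prime_dvd.mpr hcon)
    haveI := Fact.mk hp
    obtain ⟨P, hP, hEP⟩ := Coprime.exists_invariant_sylow p hEG hc (Or.inl inferInstance)
    refine ⟨p, hp, hp2, P, hP.1, hP.2.1, fun e => ?_, fun a ha => ?_⟩
    · have := hP.2.2
      rw [e, relIndex_bot_left] at this
      exact this hd
    · obtain ⟨c, hc', e⟩ := Coprime.invariant_sylow_conj hEG hc (Or.inl inferInstance) hP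
        (hP.map_conj_of_mem_normalizer (hAG ha)) hEP (by
          conv_lhs => rw [← mem_normalizer_iff_map_conj_eq.1 (hAE ha)]
          exact (map_mono hEP).trans (le_normalizer_map _))
      rw [hE0, mem_bot] at hc'
      rw [mem_normalizer_iff_map_conj_eq]
      refine e.trans ?_
      rw [hc', map_one]
      exact Subgroup.map_id _
  obtain ⟨r, hr, hrE, hrG⟩ := Nat.Prime.not_coprime_iff_dvd.1 hc
  haveI := Fact.mk hr
  obtain ⟨P, Q, hPQ, hP, hQ, h3, h4⟩ := exists_split_of_isNilpotent hE r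
  have hC : G ⊓ centralizer (Q : Set Γ) ≠ ⊥ := fun e => hQ
    (by rwa [hmin Q ⟨hAE.trans h4, e⟩ (le_sup_right.trans hPQ.le)])
  have hPA : P ≤ A := le_sup_left.trans (hPQ.le.trans (hEF.trans hFA))
  have hCn := Core.le_normalizer_inf hAG (Core.le_normalizer_centralizer (hAE.trans h4))
  have hDn := Core.le_normalizer_inf hAG (Core.le_normalizer_centralizer (hAE.trans h3))
  have hCD : G ⊓ centralizer (Q : Set Γ) ⊓ centralizer (P : Set Γ) = ⊥ := by
    refine le_bot_iff.1 (hE0 ▸ le_inf (inf_le_left.trans inf_le_left) ?_)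
    rw [le_centralizer_iff, ← hPQ, sup_le_iff, ← le_centralizer_iff, ← le_centralizer_iff (K := Q)]
    exact ⟨inf_le_right, inf_le_left.trans inf_le_right⟩
  have hrC : ¬ r ∣ Nat.card (G ⊓ centralizer (Q : Set Γ) : Subgroup Γ) := fun hd => by
    have := dvd_card_inf_centralizer hP (hPA.trans hCn) hd
    rw [hCD, card_bot] at this
    exact hr.not_dvd_one this
  by_cases hr2 : r = 2
  · obtain ⟨p, hp, hd⟩ := Core.exists_prime_dvd_card_of_ne_bot hC
    exact key _ (lt_of_le_of_ne inf_le_left fun e => hrC (e.symm ▸ hrG)) hCn p hp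
      (fun e => hrC (hr2 ▸ e ▸ hd)) hd
  · refine key _ (lt_of_le_of_ne inf_le_left fun e => hC ?_) hDn r hr hr2
      (dvd_card_inf_centralizer hP (hPA.trans hAG) hrG)
    rwa [inf_right_comm, e] at hCD

theorem hasNormalPComplement_of_invariant {A : Subgroup Γ} [G.Normal] (htop : G ⊔ A = ⊤)
    (ih : ∀ K < G, A ≤ normalizer (K : Set Γ) → Group.IsNilpotent K) (hG : Core.IsMinNormal G)
    {p : ℕ} [hp : Fact p.Prime] (hp2 : p ≠ 2) {P : Subgroup Γ} (hPG : P ≤ G) (hP : IsPGroup p P)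
    (h1 : P ≠ ⊥) (hA : A ≤ normalizer (P : Set Γ)) : IsPGroup p G := by
  by_contra hne
  have key : ∀ X ≤ G, IsPGroup p X → X ≠ ⊥ → A ≤ normalizer (X : Set Γ) →
      Group.IsNilpotent (normalizer (X : Set Γ) ⊓ G : Subgroup Γ) := fun X hX h2 h3 h4 => by
    refine ih _ (lt_of_le_of_ne inf_le_right fun e => hne ?_)
      (Core.le_normalizer_inf (Core.le_normalizer_normalizer h4) le_normalizer_of_normal)
    haveI : X.Normal := Core.normal_iff_top_le_normalizer.2
      (htop ▸ sup_le (inf_eq_right.1 e) h4)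
    rwa [← hG.eq_of_le hX h3]
  obtain ⟨M, hPM, ⟨hMG, hM, hAM⟩, hmax⟩ := Core.exists_maximal_ge
    (P := fun M => M ≤ G ∧ IsPGroup p M ∧ A ≤ normalizer (M : Set Γ)) ⟨hPG, hP, hA⟩
  have hM0 : M ≠ ⊥ := fun e => h1 (le_bot_iff.1 (e ▸ hPM))
  have hS : Coprime.IsSylowIn p M G := by
    refine Coprime.isSylowIn_of_normalizer hMG ?_
    have hn := key M hMG hM hM0 hAM
    rw [inf_comm] at hn
    obtain ⟨S, hS, hMS⟩ := Transfer.exists_isSylowIn_ge hM (le_inf hMG le_normalizer) |>.imp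
      fun _ h => And.symm h
    rw [hmax S ⟨hS.le.trans inf_le_left, hS.isPGroup, (Core.le_normalizer_inf
      le_normalizer_of_normal (Core.le_normalizer_normalizer hAM)).trans
      (hS.normalizer_le_normalizer (hS.le_normalizer_of_isNilpotent hn))⟩ hMS] at hS
    exact ⟨hS.le, hS.isPGroup, hS.not_dvd⟩
  have h2 : HasNormalPComplement p G :=
    Transfer.thompson_of_normalizer_inf hp2 ⟨hS.1, hS.2.1, hS.2.2⟩ fun X hX h3 h4 =>
      Transfer.hasNormalPComplement_of_isNilpotent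
        (key X (hX.trans hMG) (hM.to_le hX) h3 (hAM.trans h4))
  rcases hG.eq_bot_or_eq_top_of_characteristic (pResidual p G) with h3 | h3
  · exact hne (Transfer.isPGroup_iff_pResidual_eq_bot.mpr h3)
  · apply Transfer.hasNormalPComplement_iff_not_dvd_pResidual.mp h2
    rw [h3, card_top]
    exact (dvd_card_of_isPGroup hP h1).trans (card_dvd_of_le hPG)

theorem NilFrob.isNilpotent_aux (n : ℕ) : ∀ (Γ : Type u) [Group Γ] [Finite Γ]
    (G F H : Subgroup Γ), Nat.card G = n → NilFrob F H → F ⊔ H ≤ normalizer (G : Set Γ) →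
    G ⊓ centralizer (F : Set Γ) = ⊥ →
    Group.IsNilpotent (G ⊓ centralizer (H : Set Γ) : Subgroup Γ) → Group.IsNilpotent G := by
  induction n using Nat.strong_induction_on with
  | h n ih =>
  suffices key : ∀ (Γ : Type u) [Group Γ] [Finite Γ] (G F H : Subgroup Γ) [G.Normal],
      Nat.card G = n → NilFrob F H → G ⊔ (F ⊔ H) = ⊤ → G ⊓ centralizer (F : Set Γ) = ⊥ →
      Group.IsNilpotent (G ⊓ centralizer (H : Set Γ) : Subgroup Γ) → Group.IsNilpotent G by
    intro Γ _ _ G F H hn h hA h0 hC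
    have hG : G ≤ G ⊔ (F ⊔ H) := le_sup_left
    have hF : F ≤ G ⊔ (F ⊔ H) := le_sup_left.trans le_sup_right
    have hH : H ≤ G ⊔ (F ⊔ H) := le_sup_right.trans le_sup_right
    haveI := Core.normal_subgroupOf_of_le_normalizer (sup_le (le_normalizer (H := G)) hA)
    have := key _ (G.subgroupOf (G ⊔ (F ⊔ H))) _ _ ((Core.card_subgroupOf_of_le hG).trans hn)
      (h.subgroupOf _) (by rw [← subgroupOf_sup hF hH, ← subgroupOf_sup hG le_sup_right,
        subgroupOf_self])
      (by rw [inf_centralizer_subgroupOf hF, h0, bot_subgroupOf])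
      (by rw [inf_centralizer_subgroupOf hH]; exact Core.isNilpotent_subgroupOf hC _)
    rwa [← Core.isNilpotent_map_subtype_iff, map_subgroupOf_eq_of_le hG] at this
  intro Γ _ _ G F H _ hn h htop h0 hC
  have ihs : ∀ K < G, F ⊔ H ≤ normalizer (K : Set Γ) → Group.IsNilpotent K := fun K hK hA =>
    ih _ (hn ▸ Core.card_lt_card_of_lt hK) Γ K F H rfl h hA
      (le_bot_iff.1 (h0 ▸ inf_le_inf_right _ hK.le))
      (Core.isNilpotent_of_le hC (inf_le_inf_right _ hK.le))
  by_cases hb : G = ⊥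
  · rw [hb]; infer_instance
  obtain ⟨V, hV, hVG⟩ := Core.exists_isMinNormal_le hb
  haveI := hV.normal
  rcases hVG.lt_or_eq with hlt | rfl
  · have h1 := ihs V hlt le_normalizer_of_normal
    obtain ⟨h2, h3⟩ := h.map_hyp h0 hC hVG inferInstance
    haveI : (G.map (QuotientGroup.mk' V)).Normal :=
      Normal.map inferInstance _ (QuotientGroup.mk'_surjective V)
    have h4 := ih _ (by
      rw [← hn, ← Core.card_map_mk_mul V G, inf_eq_left.2 hVG]
      exact lt_mul_of_one_lt_left Nat.card_pos (one_lt_card_iff_ne_bot _ |>.2 hV.ne_bot))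
      _ _ _ _ rfl (h.map (QuotientGroup.mk' V)) le_normalizer_of_normal h2 h3
    refine h.isNilpotent_of_isSolvable ?_ h0 hC
    exact Core.isSolvable_of_le (Core.isSolvable_comap (f := QuotientGroup.mk' V)
      (by rw [QuotientGroup.ker_mk']; infer_instance) inferInstance) (le_comap_map _ _)
  by_cases h2 : IsPGroup 2 V
  · exact h2.isNilpotent
  obtain ⟨p, hp, hp2, P, hPG, hP, h1, hA⟩ := exists_invariant_isPGroup h.nil le_sup_left
    (sup_le le_normalizer h.le) le_normalizer_of_normal h0 ihs h2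
  haveI := Fact.mk hp
  exact (hasNormalPComplement_of_invariant htop ihs hV hp2 hPG hP h1 hA).isNilpotent

/-- **Khukhro–Makarenko–Shumyatsky**: nilpotence of `C_G(H)` implies nilpotence of `G`. -/
theorem NilFrob.isNilpotent (h : NilFrob F H) (hA : F ⊔ H ≤ normalizer (G : Set Γ))
    (h0 : G ⊓ centralizer (F : Set Γ) = ⊥)
    (hn : Group.IsNilpotent (G ⊓ centralizer (H : Set Γ) : Subgroup Γ)) : Group.IsNilpotent G :=
  NilFrob.isNilpotent_aux _ Γ G F H rfl h hA h0 hn

end Main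

end Cfsg.Agent.Mod
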