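import Mathlib
import Cfsg.Agent.Lib.Mod.Maschke
import Cfsg.Agent.Lib.Coprime.Product

/-! Orbits of vectors. -/

namespace Cfsg.Agent.Mod

open Module Subgroup

variable {k G V : Type*} [Field k] [Group G] [AddCommGroup V] [Module k V]
  (ρ : Representation k G V)

/-- The stabilizer of a vector. -/
def vstab (a : V) : Subgroup G where
  carrier := {g | ρ g a = a}
  mul_mem' := fun {x y} hx hy => by
    change ρ (x * y) a = a
    rw [rho_mul_apply, hy, hx]
  one_mem' := by simp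
  inv_mem' := fun {x} hx => by
    change ρ x⁻¹ a = a
    conv_lhs => rw [← hx, ← rho_mul_apply, inv_mul_cancel, map_one, Module.End.one_apply]

theorem card_orbit_eq_index (a : V) : Nat.card {u : V | ∃ h : G, ρ h a = u} = (vstab ρ a).index := by
  letI : MulAction G V := MulAction.compHom V ρ
  exact (MulAction.index_stabilizer G a).symm

variable {ρ} [Finite G]

theorem nrm_mem_fix_top {L : Subgroup G} {a : V} (hL : ∀ h : G, ∃ l ∈ L, ρ l a = ρ h a) :
    nrm ρ L a ∈ fix ρ ⊤ := by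
  haveI := Fintype.ofFinite L
  refine mem_fix.2 fun h _ => ?_
  have e : ∀ c, Nonempty ({l : L // ρ l a = c} ≃ {l : L // ρ h (ρ l a) = c}) := fun c => by
    by_cases hc : ∃ g : G, ρ g a = c
    · obtain ⟨g, rfl⟩ := hc
      obtain ⟨l₀, hl₀, h0⟩ := hL g
      obtain ⟨l₁, hl₁, h1⟩ := hL (h⁻¹ * g)
      refine ⟨(Equiv.mulLeft (⟨l₁ * l₀⁻¹, L.mul_mem hl₁ (L.inv_mem hl₀)⟩ : L)).subtypeEquiv
        fun l => ?_⟩
      have h2 : ρ g a = ρ h (ρ (l₁ * l₀⁻¹) (ρ g a)) := by
        conv_rhs => rw [← h0, ← rho_mul_apply ρ _ l₀, inv_mul_cancel_right, h1, ← rho_mul_apply,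
          mul_inv_cancel_left]
      conv_rhs => rw [h2, (rho_injective ρ h).eq_iff, Equiv.coe_mulLeft, Subgroup.coe_mul,
        rho_mul_apply, (rho_injective ρ _).eq_iff]
    · haveI : IsEmpty {l : L // ρ l a = c} := ⟨fun l => hc ⟨_, l.2⟩⟩
      haveI : IsEmpty {l : L // ρ h (ρ l a) = c} := ⟨fun l => hc ⟨_, (rho_mul_apply _ _ _ _).trans l.2⟩⟩
      exact ⟨Equiv.equivOfIsEmpty _ _⟩
  rw [nrm_apply, map_sum]
  exact (Fintype.sum_equiv (Equiv.ofFiberEquiv fun c => (e c).some) _ _ fun l =>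
    (Equiv.ofFiberEquiv_map (fun c => (e c).some) l).symm).symm

theorem fix_le_span_of_coprime {L : Subgroup G} (hk : (Nat.card L : k) ≠ 0) {a : V}
    (hspan : Submodule.span k {u : V | ∃ h : G, ρ h a = u} = ⊤)
    (hc : L.index.Coprime (vstab ρ a).index) :
    ∃ v ∈ fix ρ ⊤, fix ρ L ≤ Submodule.span k {v} := by
  have hL : ∀ h : G, ∃ l ∈ L, ρ l a = ρ h a := fun h => by
    obtain ⟨l, hl, b, hb, rfl⟩ := Coprime.exists_mul_of_coprime_relIndex (A := L) (B := vstab ρ a)
      le_top (by simpa using hc) (mem_top h)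
    exact ⟨l, hl, by rw [rho_mul_apply, show ρ b a = a from hb]⟩
  refine ⟨avg ρ L a, Submodule.smul_mem _ _ (nrm_mem_fix_top hL), fun v hv => ?_⟩
  rw [← avg_apply_of_mem_fix hk hv]
  have : (⊤ : Submodule k V) ≤ (Submodule.span k {avg ρ L a}).comap (avg ρ L) := by
    rw [← hspan, Submodule.span_le]
    rintro _ ⟨h, rfl⟩
    obtain ⟨l, hl, e⟩ := hL h
    rw [← e, SetLike.mem_coe, Submodule.mem_comap, avg_rho_apply hl]
    exact Submodule.mem_span_singleton_self _
  exact this trivial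

theorem finrank_invariants_le_one {L : Subgroup G} (hk : (Nat.card L : k) ≠ 0) {a : V}
    (hspan : Submodule.span k {u : V | ∃ h : G, ρ h a = u} = ⊤)
    (hc : L.index.Coprime (vstab ρ a).index) : finrank k ρ.invariants ≤ 1 := by
  obtain ⟨v, -, hv⟩ := fix_le_span_of_coprime hk hspan hc
  refine le_trans (Submodule.finrank_mono (t := Submodule.span k {v})
    fun w hw => hv (mem_fix.2 fun g _ => hw g)) ?_
  simpa using finrank_span_le_card (R := k) ({v} : Set V)

theorem eq_of_le_vstab {L : Subgroup G} (hk : (Nat.card L : k) ≠ 0) {a : V}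
    (hspan : Submodule.span k {u : V | ∃ h : G, ρ h a = u} = ⊤)
    (hc : L.index.Coprime (vstab ρ a).index) {b : V} (hb : L ≤ vstab ρ b) (h : G) : ρ h b = b := by
  obtain ⟨v, hv, hv'⟩ := fix_le_span_of_coprime hk hspan hc
  exact mem_fix.1 ((Submodule.span_singleton_le_iff_mem _ _).2 hv (hv' (mem_fix.2 hb))) h trivial

end Cfsg.Agent.Mod
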